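import Mathlib.GroupTheory.Sylow
import Mathlib.GroupTheory.QuotientGroup.Basic
import Mathlib.Algebra.BigOperators.Group.Finset.Basic
import Mathlib.Algebra.Group.Subgroup.Finite
import Mathlib.GroupTheory.OrderOfElement
import Mathlib.Data.Nat.ChineseRemainder

/-! A multiplicative Maschke theorem for coprime actions on abelian groups. -/

set_option autoImplicit false

namespace CfsgLib.PLocal

open Subgroup

section Abstract

variable {M A : Type*} [CommGroup M] [Finite M] [Group A] [Finite A]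

/-- Maschke's theorem for coprime actions on finite abelian groups. -/
theorem maschke_complement (ρ : A →* MulAut M) (hcop : (Nat.card A).Coprime (Nat.card M))
    (N W : Subgroup M) (hN : ∀ a, ∀ x ∈ N, ρ a x ∈ N) (hinf : N ⊓ W = ⊥) (hsup : N ⊔ W = ⊤) :
    ∃ W' : Subgroup M, (∀ a, ∀ x ∈ W', ρ a x ∈ W') ∧ N ⊓ W' = ⊥ ∧ N ⊔ W' = ⊤ := by
  classical
  have := Fintype.ofFinite A
  -- the projection
  let f : N →* M ⧸ W := (QuotientGroup.mk' W).comp N.subtype
  have hfinj : Function.Injective f := by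
    rw [← MonoidHom.ker_eq_bot_iff, eq_bot_iff]
    intro x hx
    have h1 : (x : M) ∈ W := by
      have : (QuotientGroup.mk' W) (x : M) = 1 := hx
      rwa [← MonoidHom.mem_ker, QuotientGroup.ker_mk'] at this
    have h2 : (x : M) ∈ N ⊓ W := ⟨x.2, h1⟩
    rw [hinf, mem_bot] at h2
    exact mem_bot.mpr (Subtype.ext h2)
  have hfsurj : Function.Surjective f := by
    intro q
    obtain ⟨m, rfl⟩ := QuotientGroup.mk_surjective q
    have hm : m ∈ N ⊔ W := by rw [hsup]; exact mem_top m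
    obtain ⟨y, hy, z, hz, rfl⟩ := Subgroup.mem_sup.mp hm
    refine ⟨⟨y, hy⟩, ?_⟩
    show (y : M ⧸ W) = ((y * z : M) : M ⧸ W)
    rw [QuotientGroup.eq]
    simpa using hz
  let e : N ≃* M ⧸ W := MulEquiv.ofBijective f ⟨hfinj, hfsurj⟩
  let π : M →* M := N.subtype.comp (e.symm.toMonoidHom.comp (QuotientGroup.mk' W))
  have hπN : ∀ m, π m ∈ N := fun m => (e.symm ((QuotientGroup.mk' W) m)).2
  have hπid : ∀ n ∈ N, π n = n := by
    intro n hn
    have h1 : (QuotientGroup.mk' W) n = e ⟨n, hn⟩ := rfl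
    simp only [π, MonoidHom.comp_apply, h1]
    simp
  -- the average
  let θ : M →* M := ∏ a : A, ((ρ a).toMonoidHom.comp (π.comp (ρ a⁻¹).toMonoidHom))
  have hθapp : ∀ m, θ m = ∏ a : A, ρ a (π (ρ a⁻¹ m)) := by
    intro m
    simp [θ]
  have hθN : ∀ m, θ m ∈ N := by
    intro m
    rw [hθapp]
    exact Subgroup.prod_mem _ fun a _ => hN a _ (hπN _)
  have hθid : ∀ n ∈ N, θ n = n ^ Nat.card A := by
    intro n hn
    rw [hθapp]
    have : ∀ a : A, ρ a (π (ρ a⁻¹ n)) = n := by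
      intro a
      rw [hπid _ (hN _ _ hn), map_inv]
      simp
    rw [Finset.prod_congr rfl (fun a _ => this a), Finset.prod_const, Finset.card_univ,
      Nat.card_eq_fintype_card]
  have hθeq : ∀ b m, θ (ρ b m) = ρ b (θ m) := by
    intro b m
    rw [hθapp, hθapp, map_prod]
    refine Fintype.prod_equiv (Equiv.mulLeft b⁻¹) _ _ fun a => ?_
    simp only [Equiv.coe_mulLeft, map_mul, map_inv, mul_inv_rev, inv_inv, MulAut.mul_apply]
    simp
  -- the inverse power
  obtain ⟨x, hx0, hx1⟩ := Nat.chineseRemainder hcop 0 1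
  obtain ⟨r, rfl⟩ : Nat.card A ∣ x := (Nat.modEq_zero_iff_dvd).mp hx0
  have hroot : ∀ m : M, m ^ (Nat.card A * r) = m := by
    intro m
    have h2 : Nat.card A * r ≡ 1 [MOD orderOf m] := hx1.of_dvd (orderOf_dvd_natCard m)
    have := pow_eq_pow_iff_modEq.mpr h2
    rwa [pow_one] at this
  let σ : M →* M := θ ^ r
  have hσapp : ∀ m, σ m = (θ m) ^ r := fun m => by simp [σ, MonoidHom.pow_apply]
  have hσN : ∀ m, σ m ∈ N := fun m => by
    rw [hσapp]; exact N.pow_mem (hθN m) r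
  have hσid : ∀ n ∈ N, σ n = n := by
    intro n hn
    rw [hσapp, hθid n hn, ← pow_mul, hroot]
  refine ⟨σ.ker, ?_, ?_, ?_⟩
  · intro a y hy
    rw [MonoidHom.mem_ker] at hy ⊢
    rw [hσapp, hθeq, ← map_pow, ← hσapp, hy, map_one]
  · rw [eq_bot_iff]
    rintro y ⟨hy1, hy2⟩
    rw [mem_bot, ← hσid y hy1]
    exact hy2
  · rw [eq_top_iff]
    intro m _
    have h1 : m = σ m * ((σ m)⁻¹ * m) := by simp
    rw [h1]
    refine mul_mem (mem_sup_left (hσN m)) (mem_sup_right ?_)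
    rw [MonoidHom.mem_ker, map_mul, map_inv, hσid _ (hσN m)]
    simp

end Abstract

/-- **S0660**. -/
theorem coprime_action_invariant_complement {G : Type*} [Group G] [Finite G] (V A U : Subgroup G)
    (hVab : IsMulCommutative V) (hAV : A ≤ normalizer (V : Set G))
    (hcop : (Nat.card A).Coprime (Nat.card V)) (hUV : U ≤ V)
    (hAU : A ≤ normalizer (U : Set G)) (W : Subgroup G) (hWV : W ≤ V) (hUW : U ⊓ W = ⊥)
    (hUWV : U ⊔ W = V) :
    ∃ W' : Subgroup G, W' ≤ V ∧ A ≤ normalizer (W' : Set G) ∧ U ⊓ W' = ⊥ ∧ U ⊔ W' = V := by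
  letI : CommGroup V := { (inferInstance : Group V) with mul_comm := fun a b => hVab.is_comm.comm a b }
  let ρ : A →* MulAut V := V.normalizerMonoidHom.comp (Subgroup.inclusion hAV)
  have hρ : ∀ (a : A) (v : V), ((ρ a v : V) : G) = a * v * (a : G)⁻¹ := fun a v => rfl
  have hinf : U.subgroupOf V ⊓ W.subgroupOf V = ⊥ := by
    rw [eq_bot_iff]
    rintro x ⟨h1, h2⟩
    have h3 : (x : G) ∈ U ⊓ W := ⟨mem_subgroupOf.mp h1, mem_subgroupOf.mp h2⟩
    rw [hUW, mem_bot] at h3
    exact mem_bot.mpr (Subtype.ext h3)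
  have hsup : U.subgroupOf V ⊔ W.subgroupOf V = ⊤ := by
    apply Subgroup.map_injective V.subtype_injective
    rw [Subgroup.map_sup, Subgroup.map_subgroupOf_eq_of_le hUV, Subgroup.map_subgroupOf_eq_of_le hWV,
      hUWV, ← MonoidHom.range_eq_map, Subgroup.range_subtype]
  have hN : ∀ a, ∀ x ∈ U.subgroupOf V, ρ a x ∈ U.subgroupOf V := by
    intro a x hx
    rw [mem_subgroupOf] at hx ⊢
    rw [hρ]
    exact (mem_normalizer_iff.mp (hAU a.2) _).mp hx
  obtain ⟨W', h1, h2, h3⟩ := maschke_complement ρ hcop _ _ hN hinf hsup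
  refine ⟨W'.map V.subtype, Subgroup.map_subtype_le W', ?_, ?_, ?_⟩
  · intro a ha
    rw [mem_normalizer_iff]
    intro y
    constructor
    · rintro ⟨z, hz, rfl⟩
      exact ⟨_, h1 ⟨a, ha⟩ z hz, hρ ⟨a, ha⟩ z⟩
    · rintro ⟨z, hz, hze⟩
      have h4 := h1 ⟨a, ha⟩⁻¹ z hz
      refine ⟨_, h4, ?_⟩
      have h5 := hρ ⟨a, ha⟩⁻¹ z
      simp only [InvMemClass.coe_inv, inv_inv] at h5
      simp only [coe_subtype] at hze ⊢
      rw [h5, hze]
      group
  · rw [eq_bot_iff]
    rintro x ⟨hx1, ⟨z, hz, rfl⟩⟩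
    have : z ∈ U.subgroupOf V ⊓ W' := ⟨mem_subgroupOf.mpr hx1, hz⟩
    rw [h2, mem_bot] at this
    simp [this]
  · have := congrArg (Subgroup.map V.subtype) h3
    rw [Subgroup.map_sup, Subgroup.map_subgroupOf_eq_of_le hUV, ← MonoidHom.range_eq_map,
      Subgroup.range_subtype] at this
    exact this

end CfsgLib.PLocal
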